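import Mathlib
import Cfsg.Agent.H585.SuRow
import Cfsg.Agent.H965.ASCyc
import Cfsg.Agent.H965.ASLt

/-!
# Exceptional rows of `AS2`: tools (helper531)

`RowC G q c`: the row of helper585 together with the bound `c` for the centraliser of the elements of order `r`.

* `card_cent_le` : the centraliser of an element of order `r` has order at most `|T|`, `T` a cyclic torus containing the
  centralisers of its elements of order `r`;
* `rowC_of`, `rowC_small_of` : the versions of `row_of`, `row_small_of` (H585/SuRow) which give `RowC`;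
* `RowC.as2` : `2 c ≤ b` suffices, `b` a lower bound for the index of proper subgroups.
-/

set_option autoImplicit false
set_option linter.unusedSectionVars false

namespace Cfsg.Agent.H531.ASRow

open Cfsg.Agent.H465.SU Cfsg.Lie Cfsg.Agent.Nodes.RGDChev Cfsg.Agent.H62.PPChev Cfsg.Agent.H585.SuUntw
  Cfsg.Agent.H585.SuSel Cfsg.Agent.H585.SuRow Cfsg.Agent.H585.SuTor Cfsg.Agent.H965.AS Cfsg.Agent.H965.SU

universe u

/-- the row, with a bound for the centraliser of the elements of order `r` -/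
def RowC (G : Type*) [Group G] (q c : ℕ) : Prop :=
  ∃ (r a : ℕ) (y : G), r.Prime ∧ 7 ≤ r ∧ 1 ≤ a ∧ orderOf y = r ^ a ∧ ¬ r ^ (a + 1) ∣ Nat.card G ∧ SUel r y ∧
    (∃ p f : ℕ, p.Prime ∧ q = p ^ f ∧ ¬ r ∣ f) ∧
    Nat.card ↥(Subgroup.centralizer ({y ^ r ^ (a - 1)} : Set G)) ≤ c

theorem RowC.mono {G : Type*} [Group G] {q c c' : ℕ} (h : RowC G q c) (hc : c ≤ c') : RowC G q c' := by
  obtain ⟨r, a, y, h1, h2, h3, h4, h5, h6, h7, h8⟩ := h
  exact ⟨r, a, y, h1, h2, h3, h4, h5, h6, h7, h8.trans hc⟩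

/-- the socle element of a cyclic group of order `r ^ a` -/
theorem orderOf_socle {G : Type*} [Group G] {r a : ℕ} (hr : r.Prime) (ha : 1 ≤ a) {y : G} (hy : orderOf y = r ^ a) :
    orderOf (y ^ r ^ (a - 1)) = r := by
  rw [orderOf_pow' _ (pow_pos hr.pos _).ne', hy]
  have h1 : r ^ a = r ^ (a - 1) * r := by rw [← pow_succ, Nat.sub_add_cancel ha]
  rw [h1, Nat.gcd_eq_right (Dvd.intro _ rfl), Nat.mul_div_cancel_left _ (pow_pos hr.pos _)]

/-- the centraliser of an element of order `r`, if a torus contains the centralisers of its elements of order `r` -/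
theorem card_cent_le {G : Type*} [Group G] [Finite G] {T : Subgroup G} {r : ℕ} (hr : r.Prime)
    (hT : r ∣ Nat.card ↥T) (hcent : ∀ y ∈ T, orderOf y = r → Subgroup.centralizer {y} ≤ T) {z : G}
    (hz : orderOf z = r) : Nat.card ↥(Subgroup.centralizer ({z} : Set G)) ≤ Nat.card ↥T := by
  have hrf : Fact r.Prime := ⟨hr⟩
  obtain ⟨x, hx⟩ := exists_prime_orderOf_dvd_card' r hT
  have hx' : orderOf (x : G) = r := by rw [Subgroup.orderOf_coe, hx]
  obtain ⟨P, hP⟩ := (IsPGroup.of_card (p := r) (n := 1) (by rw [Nat.card_zpowers, hx', pow_one]) :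
      IsPGroup r (Subgroup.zpowers (x : G))).exists_le_sylow
  have hPT : (P : Subgroup G) ≤ T := sylow_le hr hcent x.2 hx' P.isPGroup' (hP (Subgroup.mem_zpowers _))
  obtain ⟨Q, hQ⟩ := (IsPGroup.of_card (p := r) (n := 1) (by rw [Nat.card_zpowers, hz, pow_one]) :
      IsPGroup r (Subgroup.zpowers z)).exists_le_sylow
  obtain ⟨g, hg⟩ := MulAction.exists_smul_eq G Q P
  have hzT : g * z * g⁻¹ ∈ T := by
    apply hPT
    rw [← hg]
    exact ⟨z, hQ (Subgroup.mem_zpowers z), rfl⟩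
  have hzo : orderOf (g * z * g⁻¹) = r := by
    have e : g * z * g⁻¹ = MulAut.conj g z := rfl
    rw [e, MulEquiv.orderOf_eq, hz]
  have h1 := hcent _ hzT hzo
  refine Nat.card_le_card_of_injective (fun u : Subgroup.centralizer ({z} : Set G) =>
    (⟨g * u * g⁻¹, h1 ?_⟩ : ↥T)) ?_
  · have h2 := Subgroup.mem_centralizer_singleton_iff.1 u.2
    rw [Subgroup.mem_centralizer_singleton_iff]
    calc g * (u : G) * g⁻¹ * (g * z * g⁻¹) = g * ((u : G) * z) * g⁻¹ := by group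
      _ = g * (z * (u : G)) * g⁻¹ := by rw [h2]
      _ = g * z * g⁻¹ * (g * (u : G) * g⁻¹) := by group
  · intro u v h
    have h2 : g * (u : G) * g⁻¹ = g * (v : G) * g⁻¹ := congrArg Subtype.val h
    exact Subtype.ext (mul_left_cancel (mul_right_cancel h2))

section

variable {D : ChevalleyDatum} {l : ℕ} {M : CoxeterMatrix (Fin l)} (hp : IsType D l M) {K : Type u} [Field K]
  [Fintype K]

include hp

/-- the row from the torus -/
theorem rowC_of [Finite M.Group] {q e : ℕ} (hF : Fintype.card K = q) {N N' d : ℕ} {r a : ℕ} (hr : r.Prime)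
    (h7 : 7 ≤ r) (ha : 1 ≤ a) (ho : orderOf (q : ZMod r) = e) (haN : r ^ a ∣ N)
    (haN' : ¬ r ^ (a + 1) ∣ N) (hdim : D.rank + D.nroots + r ^ (a - 1) < r ^ a)
    (hf : ∃ p f : ℕ, p.Prime ∧ q = p ^ f ∧ ¬ r ∣ f) {T : Subgroup ↥(D.group K)} (hc : IsCyclic ↥T)
    (hcent : ∀ y ∈ T, orderOf y = r → Subgroup.centralizer {y} ≤ T) (hN' : ¬ r ∣ N')
    (h1 : Nat.card ↥T ∣ N' * N) (h2 : N' * N ∣ d * Nat.card ↥T) (hrd : ¬ r ∣ d) (hqN : q.Coprime (N' * N))
    (hm : ∀ i : Fin l, ¬ e ∣ num D i) : RowC ↥(D.group K) q (Nat.card ↥T) := by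
  obtain ⟨p, hpc⟩ := CharP.exists K
  have hq1 : 1 ≤ q := by rw [← hF]; exact Fintype.card_pos
  obtain ⟨y, hy1, hy2, hy3⟩ := row hp M.toCoxeterSystem p hr (by omega) hc hcent h1 h2 hrd ha (haN.mul_left _)
    (fun h => haN' (Nat.Coprime.dvd_of_dvd_mul_left
      (Nat.Coprime.pow_left _ ((Nat.Prime.coprime_iff_not_dvd hr).2 hN')) h))
    (prime_not_dvd hF p hqN) hdim (fun i h => hm i (by
      rw [hF, dvd_pow_sub_one hq1, ho] at h
      exact h))
  have hrT : r ∣ Nat.card ↥T := by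
    have h3 : r ∣ d * Nat.card ↥T := ((dvd_pow_self r (by omega)).trans (haN.mul_left N')).trans h2
    exact ((Nat.Prime.dvd_mul hr).1 h3).resolve_left hrd
  exact ⟨r, a, y, hr, h7, ha, hy1, hy2, hy3, hf, card_cent_le hr hrT hcent (orderOf_socle hr ha hy1)⟩

/-- the row for small fields -/
theorem rowC_small_of [Finite M.Group] {q e : ℕ} (hF : Fintype.card K = q) {N N' d : ℕ} {r : ℕ} (hr : r.Prime)
    (h7 : 7 ≤ r) (ho : orderOf (q : ZMod r) = e) (haN : r ∣ N) (haN' : ¬ r ^ 2 ∣ N)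
    (hf : ∃ p f : ℕ, p.Prime ∧ q = p ^ f ∧ ¬ r ∣ f) {T : Subgroup ↥(D.group K)} (hc : IsCyclic ↥T)
    (hcent : ∀ y ∈ T, orderOf y = r → Subgroup.centralizer {y} ≤ T) (hN' : ¬ r ∣ N')
    (h1 : Nat.card ↥T ∣ N' * N) (h2 : N' * N ∣ d * Nat.card ↥T) (hrd : ¬ r ∣ d) (hqN : q.Coprime (N' * N))
    (hm : ∀ i : Fin l, ¬ e ∣ num D i) {L : List (ℕ × ℕ)} {m : ℕ} (hm0 : m * Nat.card ↥(D.group K) = pp L)
    (hprime : ∀ x ∈ L, x.1.Prime) (hnd : (L.map Prod.fst).Nodup) {p : ℕ} (hp : p.Prime) (hpq : p ∣ q)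
    (hchk : Chk r p L) : RowC ↥(D.group K) q (Nat.card ↥T) := by
  obtain ⟨p', hpc⟩ := CharP.exists K
  have hpp : p' = p := by
    obtain ⟨f, hp', hf⟩ := FiniteField.card K p'
    rw [hF] at hf
    rw [hf] at hpq
    exact ((Nat.prime_dvd_prime_iff_eq hp hp').1 (hp.dvd_of_dvd_pow hpq)).symm
  subst hpp
  have hq1 : 1 ≤ q := by rw [← hF]; exact Fintype.card_pos
  obtain ⟨y, hy1, hy2, hy3⟩ := row_small ‹IsType D l M› M.toCoxeterSystem p' hr hc hcent h1 h2 hrd (haN.mul_left _)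
    (fun h => haN' (Nat.Coprime.dvd_of_dvd_mul_left
      (Nat.Coprime.pow_left _ ((Nat.Prime.coprime_iff_not_dvd hr).2 hN')) h))
    (prime_not_dvd hF p' hqN) (fun i h => hm i (by
      rw [hF, dvd_pow_sub_one hq1, ho] at h
      exact h)) (arith_of_list hr (hm0 ▸ Dvd.intro_left _ rfl) hprime hnd hchk)
  have hrT : r ∣ Nat.card ↥T := by
    have h3 : r ∣ d * Nat.card ↥T := (haN.mul_left N').trans h2
    exact ((Nat.Prime.dvd_mul hr).1 h3).resolve_left hrd
  exact ⟨r, 1, y, hr, h7, le_rfl, hy1, hy2, hy3, hf, card_cent_le hr hrT hcent (orderOf_socle hr le_rfl hy1)⟩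

end

/-- **`AS2` from the row.** -/
theorem RowC.as2 {K : Type u} [Group K] [Finite K] [IsSimpleGroup K] {q c : ℕ} (h : RowC K q c)
    (hna : ¬ IsMulCommutative K)
    (hout : ∀ p f r : ℕ, p.Prime → q = p ^ f → r.Prime → 7 ≤ r → ¬ r ∣ f → ¬ r ∣ Nat.card (Cfsg.Out K))
    {b : ℕ} (hb : ∀ H : Subgroup K, H ≠ ⊤ → b ≤ H.index) (hcb : 2 * c ≤ b) : AS2 K := by
  obtain ⟨r, a, y, hr, h7, ha, hy, hfull, hsu, ⟨p, f, hp, hq, hf⟩, hc⟩ := h
  have hrow : SURow K r a y :=
    { hp := hr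
      odd := by omega
      ha := ha
      ord := hy
      su := hsu
      full := hfull
      inn := fun β hβ => inner_of_card hr (hout p f r hp hq hr h7 hf) β hβ }
  exact AS2.of_row hna hrow (by omega) hc hb hcb

/-- **`AS2` from the row**, weaker numerical hypothesis: `2 c < 7 b`. -/
theorem RowC.as2_lt {K : Type u} [Group K] [Finite K] [IsSimpleGroup K] {q c : ℕ} (h : RowC K q c)
    (hna : ¬ IsMulCommutative K)
    (hout : ∀ p f r : ℕ, p.Prime → q = p ^ f → r.Prime → 7 ≤ r → ¬ r ∣ f → ¬ r ∣ Nat.card (Cfsg.Out K))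
    {b : ℕ} (hb : ∀ H : Subgroup K, H ≠ ⊤ → b ≤ H.index) (hcb : 2 * c < 7 * b) : AS2 K := by
  obtain ⟨r, a, y, hr, h7, ha, hy, hfull, hsu, ⟨p, f, hp, hq, hf⟩, hc⟩ := h
  have hrow : SURow K r a y :=
    { hp := hr
      odd := by omega
      ha := ha
      ord := hy
      su := hsu
      full := hfull
      inn := fun β hβ => inner_of_card hr (hout p f r hp hq hr h7 hf) β hβ }
  refine AS2.of_lt hna hrow (by omega) hc hb (lt_of_lt_of_le hcb (Nat.mul_le_mul_right _ ?_))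
  exact h7.trans (Nat.le_self_pow (by omega) r)

/-- a finite simple group of composite order is not commutative -/
theorem not_comm_of_card {K : Type u} [Group K] [Finite K] [IsSimpleGroup K]
    (hK : ¬ (Nat.card K).Prime) : ¬ IsMulCommutative K := by
  intro hcomm
  have := hcomm
  let _ : CommGroup K := { (inferInstance : Group K) with mul_comm := fun a b => hcomm.is_comm.comm a b }
  exact hK (IsSimpleGroup.prime_card (α := K))

end Cfsg.Agent.H531.ASRow
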