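import Mathlib
import Cfsg.Agent.H531.AS.Row
import Cfsg.Agent.H585.SuF4
import Cfsg.Agent.H599.IdxF4
import Cfsg.Agent.S1062
import Cfsg.Agent.S2122

/-!
# The row `F₄(q)` of `AS2` (helper531)

The element `y` of order `r ^ a`, `r` a prime divisor of `q⁴ - q² + 1` (`17` for `q = 2`) generates with its centraliser
a cyclic torus of order `q⁴ - q² + 1` (`17`), and every proper subgroup has index at least `2 q⁵`.
-/

set_option autoImplicit false
set_option linter.unusedSectionVars false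

namespace Cfsg.Agent.H531.ASF4

open Cfsg Cfsg.Lie Cfsg.Agent.Nodes.RGDChev Cfsg.Agent.H585.SuRow
  Cfsg.Agent.H585.SuSel Cfsg.Agent.H585.SuPhi Cfsg.Agent.H62.PPChev Cfsg.Agent.H531.ASRow Cfsg.Agent.H965.AS
  Cfsg.Agent.H585.SuF4

universe u v

variable {F : Type u} [Field F] [Fintype F]

theorem rowC : RowC ↥(chevF4.group F) (Fintype.card F) (Fintype.card F ^ 5) := by
  obtain ⟨q, hF⟩ : ∃ q, Fintype.card F = q := ⟨_, rfl⟩
  have hq2 : 2 ≤ q := by rw [← hF]; exact Fintype.one_lt_card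
  rw [hF]
  have hle : q ^ 2 ≤ q ^ 4 := Nat.pow_le_pow_right (by omega) (by norm_num)
  have h2q : 1 ≤ q ^ 2 := Nat.one_le_pow _ _ (by omega)
  have hle4 : q ^ 4 + 1 ≤ q ^ 5 := by
    have h1 : 1 ≤ q ^ 4 := Nat.one_le_pow _ _ (by omega)
    calc q ^ 4 + 1 ≤ q ^ 4 * 2 := by omega
      _ ≤ q ^ 4 * q := Nat.mul_le_mul_left _ hq2
      _ = q ^ 5 := by ring
  obtain ⟨N, hNdef⟩ : ∃ N, N = q ^ 4 - q ^ 2 + 1 := ⟨_, rfl⟩
  have hN : (N : ℤ) = 1 - (q : ℤ) ^ 2 + (q : ℤ) ^ 4 := by rw [hNdef]; push_cast [Nat.cast_sub hle]; ring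
  rcases sel_of (F := F) (d := 52) (B := 962) hF (by norm_num) (by norm_num) (by omega) (ord12 hN) (sq12 hN) (dvd12 hN)
    (by decide +kernel) (by norm_num) with ⟨r, a, hr, ha, ho, haN, haN', hd, hf⟩ | hB
  · obtain ⟨hmod, h6⟩ := mod_eq_one hr (by norm_num) ho
    obtain ⟨T, h1, h2, h3, h4, h5⟩ := torus12 hF hN hr (by omega) (dvd12 hN r hr ho)
    refine (rowC_of typ hF hr (by omega) ha ho haN haN' (by rw [dim]; exact hd) hf h1 h5
      (fun h => hr.one_lt.ne' (Nat.dvd_one.1 h)) h2 h3 (fun h => by have := Nat.le_of_dvd (by norm_num) h; omega) h4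
      ndv12).mono ?_
    have h6 := Nat.le_of_dvd (by omega) h2
    omega
  · obtain ⟨N2, hN2def⟩ : ∃ N, N = q ^ 4 + 1 := ⟨_, rfl⟩
    have hN2 : (N2 : ℤ) = 1 + (q : ℤ) ^ 4 := by rw [hN2def]; push_cast; ring
    have hq4 : q ≤ 5 := by
      have := Nat.le_of_dvd (by norm_num) hB
      by_contra h
      push Not at h
      have h1 : 6 ^ 2 * q ^ 2 ≤ q ^ 2 * q ^ 2 := Nat.mul_le_mul_right _ (Nat.pow_le_pow_left h 2)
      have h2 : 6 ^ 2 ≤ q ^ 2 := Nat.pow_le_pow_left h 2
      have h3 : q ^ 4 = q ^ 2 * q ^ 2 := by ring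
      omega
    subst hNdef
    subst hN2def
    have hcases : q = 2 := by
      clear hN hN2 hF hle hle4 h2q
      interval_cases q <;> revert hB <;> norm_num
    subst hcases
    obtain ⟨T, h1, h2, h3, h4, h5⟩ := torus8 hF hN2 (r := 17) (by norm_num) (by norm_num) (by norm_num)
    have ho : orderOf ((2 : ℕ) : ZMod 17) = 8 := by
      rcases ord8 hN2 17 (by norm_num) (by norm_num) with h | h
      · exact h
      · omega
    refine (rowC_small_of typ hF (r := 17) (by norm_num) (by omega) ho (by norm_num) (by norm_num)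
      ⟨2, 1, by norm_num, by norm_num, by norm_num⟩ h1 h5 (by norm_num) h2 h3 (by norm_num) h4 ndv8
      (L := [(2, 24), (3, 6), (5, 2), (7, 2), (13, 1), (17, 1)]) (m := 1) ?_
      (by norm_num) (by decide) (p := 2) (by norm_num) (by norm_num) (by decide +kernel)).mono ?_
    · rw [Cfsg.Agent.S1062.result (F := F) hF]
      decide +kernel
    · have h6 := Nat.le_of_dvd (by norm_num) h2
      exact h6.trans (by norm_num)

/-- `AS2` for `F₄(q)` -/
theorem as2_group [IsSimpleGroup ↥(chevF4.group F)] : AS2 ↥(chevF4.group F) := by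
  have hfin : Finite ↥(chevF4.group F) := inferInstance
  have hq2 : 2 ≤ Fintype.card F := Fintype.one_lt_card
  have hcard := Cfsg.Agent.S1062.result (F := F) rfl
  have hna : ¬ IsMulCommutative ↥(chevF4.group F) := by
    apply not_comm_of_card
    intro h
    obtain ⟨q, hq⟩ : ∃ q, Fintype.card F = q := ⟨_, rfl⟩
    rw [hq] at hcard hq2
    have h1 : q ∣ Nat.card ↥(chevF4.group F) := by
      rw [hcard]
      exact ((((dvd_pow_self q (by norm_num)).mul_right _).mul_right _).mul_right _).mul_right _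
    have h2 : q ^ 2 ∣ Nat.card ↥(chevF4.group F) := by
      rw [hcard]
      exact ((((pow_dvd_pow q (by norm_num)).mul_right _).mul_right _).mul_right _).mul_right _
    rcases (Nat.dvd_prime h).1 h1 with h3 | h3
    · omega
    · rw [← h3] at h2
      have h4 := Nat.le_of_dvd (by omega) h2
      nlinarith
  refine (rowC (F := F)).as2 hna ?_ (b := 2 * Fintype.card F ^ 5)
    (H599.IdxF4.two_mul_le (F := F) inferInstance) le_rfl
  intro p f r hp hq hr h7 hf h
  have : Fact p.Prime := ⟨hp⟩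
  have : CharP F p := charP_of_card_eq_prime_pow hq
  rw [Cfsg.Agent.S2122.result p f hq] at h
  rcases (Nat.Prime.dvd_mul hr).1 h with h1 | h1
  · have h2 : r ∣ 2 := h1.trans (Nat.gcd_dvd_left _ _)
    have := Nat.le_of_dvd (by norm_num) h2
    omega
  · exact hf h1

/-- **The row `F₄(q)`.** -/
theorem as2_F4 {K : Type v} [Group K] [Finite K] [IsSimpleGroup K]
    (h : ∃ (F : Type u) (_ : Field F) (_ : Fintype F), Nonempty (K ≃* ↥(chevF4.group F))) : AS2 K := by
  obtain ⟨F, _, _, ⟨e⟩⟩ := h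
  have : Nontrivial ↥(chevF4.group F) := e.symm.toEquiv.nontrivial
  have : IsSimpleGroup ↥(chevF4.group F) := IsSimpleGroup.isSimpleGroup_of_surjective e.toMonoidHom e.surjective
  exact AS2.congr e.symm as2_group

end Cfsg.Agent.H531.ASF4
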